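import Cfsg.Agent.H665.RIM.Defs
import Cfsg.Agent.Characters.Core
import Cfsg.Agent.S0252
import Cfsg.Agent.S0253
import Cfsg.Agent.S0254
import Cfsg.Agent.S0255
import Cfsg.Agent.S0256
import Cfsg.Agent.S0822

/-!
# S4816: transport of the rows along isomorphisms; exceptional isomorphisms (helper507, RIM-ISO)

* `nb_congr`, `nball_congr`, `absyl_congr`, `ek_congr`, `kill_congr` (argument `e : S ≃* T`), all between arbitrary
  universes; `coreP_equiv`: transport of `CoreP`.
* `psl24_a5`, `psl25_a5`, `psl24_psl25`, `psl29_a6`, `psl27_psl32`, `psl42_a8`, `psu42_psp43`.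
-/

set_option autoImplicit false

open Cfsg

namespace Cfsg.Agent.H507.RIM

open Cfsg.Agent.H229.RIM Cfsg.Agent.H665.RIM Cfsg.Agent.Characters.Core
open scoped commutatorElement

universe u v w

/-- a copy of a finite type in the universe `w` -/
def Cp (n : ℕ) : Type w := ULift.{w} (Fin n)

theorem exists_group_copy (E : Type v) [Group E] [Finite E] :
    ∃ (E' : Type u) (_ : Group E') (_ : Finite E'), Nonempty (E' ≃* E) := by
  let e : Cp.{u} (Nat.card E) ≃ E := Equiv.ulift.trans (Finite.equivFin E).symm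
  let _ : Group (Cp.{u} (Nat.card E)) := e.group
  exact ⟨Cp.{u} (Nat.card E), inferInstance, Finite.of_equiv _ e.symm, ⟨e.mulEquiv⟩⟩

theorem exists_add_copy (V : Type v) [AddCommGroup V] [Finite V] :
    ∃ (V' : Type u) (_ : AddCommGroup V') (_ : Finite V'), Nonempty (V' ≃+ V) := by
  let e : Cp.{u} (Nat.card V) ≃ V := Equiv.ulift.trans (Finite.equivFin V).symm
  let _ : AddCommGroup (Cp.{u} (Nat.card V)) := e.addCommGroup
  exact ⟨Cp.{u} (Nat.card V), inferInstance, Finite.of_equiv _ e.symm, ⟨e.addEquiv⟩⟩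

/-! ### `NB` -/

theorem nb_use {p m : ℕ} {S : Type u} [Group S] (h : NB p m S) {E : Type u} [Group E] [Finite E] (π : E →* S)
    (hs : Function.Surjective π) (Z : Subgroup E) (hZ : π.ker = Z) (hc : Z ≤ Subgroup.center E)
    (hp : commutator E = ⊤) (hm : Nat.card Z = m) (l : Z →* ℂˣ) (hl : Function.Injective l) :
    ∃ χ : E → ℂ, IsIrrCharacter E χ ∧ (∀ z : Z, χ z = χ 1 * l z) ∧ p ∣ charDegree χ := by
  subst hZ
  exact h E π hs hc hp hm l hl

/-- the restriction of an isomorphism to the preimage of a subgroup -/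
def resEquiv {G : Type*} {H : Type*} [Group G] [Group H] (f : G ≃* H) (Z : Subgroup H) :
    ↥(Z.comap f.toMonoidHom) ≃* Z where
  toFun x := ⟨f x, x.2⟩
  invFun x := ⟨f.symm x, by
    rw [Subgroup.mem_comap]
    change f (f.symm x) ∈ Z
    rw [f.apply_symm_apply]
    exact x.2⟩
  left_inv x := Subtype.ext (f.symm_apply_apply _)
  right_inv x := Subtype.ext (f.apply_symm_apply _)
  map_mul' x y := Subtype.ext (map_mul f _ _)

theorem commutator_equiv {G : Type*} {H : Type*} [Group G] [Group H] (f : G ≃* H) (h : commutator H = ⊤) :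
    commutator G = ⊤ := by
  rw [commutator_def] at h ⊢
  have h1 : (⁅(⊤ : Subgroup G), ⊤⁆ : Subgroup G).map f.toMonoidHom = ⊤ := by
    rw [Subgroup.map_commutator, Subgroup.map_top_of_surjective _ f.surjective, h]
  rw [eq_top_iff]
  intro x _
  have h2 : f x ∈ (⁅(⊤ : Subgroup G), ⊤⁆ : Subgroup G).map f.toMonoidHom := by rw [h1]; trivial
  obtain ⟨y, hy, hxy⟩ := h2
  rwa [← f.injective hxy]

theorem nb_congr {p m : ℕ} {S : Type u} {T : Type v} [Group S] [Group T] (e : S ≃* T) (h : NB p m S) : NB p m T := by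
  intro E _ _ π hs hc hp hm l hl
  obtain ⟨E', _, _, ⟨f⟩⟩ := exists_group_copy.{u, v} E
  let π' : E' →* S := e.symm.toMonoidHom.comp (π.comp f.toMonoidHom)
  have hker : π'.ker = π.ker.comap f.toMonoidHom := by
    ext x
    rw [MonoidHom.mem_ker, Subgroup.mem_comap, MonoidHom.mem_ker]
    change e.symm (π (f x)) = 1 ↔ π (f x) = 1
    exact map_eq_one_iff _ e.symm.injective
  obtain ⟨χ, h1, h2, h3⟩ := nb_use h π' (e.symm.surjective.comp (hs.comp f.surjective)) _ hker (by
      intro x hx
      rw [Subgroup.mem_center_iff]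
      intro g
      apply f.injective
      rw [map_mul, map_mul]
      exact Subgroup.mem_center_iff.1 (hc hx) (f g))
    (commutator_equiv f hp) (by rw [Nat.card_congr (resEquiv f π.ker).toEquiv, hm])
    (l.comp (resEquiv f π.ker).toMonoidHom) (hl.comp (resEquiv f π.ker).injective)
  refine ⟨fun x => χ (f.symm x), isIrr_comp f.symm.toMonoidHom f.symm.surjective h1, fun z => ?_, ?_⟩
  · have h4 := h2 ((resEquiv f π.ker).symm z)
    have h5 : (resEquiv f π.ker) ((resEquiv f π.ker).symm z) = z := (resEquiv f π.ker).apply_symm_apply z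
    change χ (f.symm z) = χ 1 * l ((resEquiv f π.ker) ((resEquiv f π.ker).symm z)) at h4
    rw [h5] at h4
    change χ (f.symm z) = χ (f.symm 1) * l z
    rw [h4, map_one]
  · have h4 : charDegree (fun x => χ (f.symm x)) = charDegree χ := by
      change ⌊(χ (f.symm 1)).re⌋₊ = ⌊(χ 1).re⌋₊
      rw [map_one]
    rw [h4]
    exact h3

theorem nball_congr {p : ℕ} {S : Type u} {T : Type v} [Group S] [Group T] (e : S ≃* T) (h : NBall p S) : NBall p T :=
  fun m hm hpm => nb_congr e (h m hm hpm)

theorem absyl_congr {p : ℕ} {S : Type u} {T : Type v} [Group S] [Group T] (e : S ≃* T) (h : AbSyl p S) : AbSyl p T := by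
  intro P hP a ha b hb
  have h1 : IsPGroup p (P.comap e.toMonoidHom) := hP.comap_of_injective e.toMonoidHom e.injective
  have h2 := h (P.comap e.toMonoidHom) h1 (e.symm a) (by
    rw [Subgroup.mem_comap]
    change e (e.symm a) ∈ P
    rwa [e.apply_symm_apply]) (e.symm b) (by
    rw [Subgroup.mem_comap]
    change e (e.symm b) ∈ P
    rwa [e.apply_symm_apply])
  have h3 := congrArg e h2
  rwa [map_mul, map_mul, e.apply_symm_apply, e.apply_symm_apply] at h3

/-! ### `EK` -/

theorem mem_comap_iff {G : Type*} {H : Type*} [Group G] [Group H] (f : G ≃* H) (Z : Subgroup H) (x : G) :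
    x ∈ Z.comap f.toMonoidHom ↔ f x ∈ Z := Iff.rfl

/-- transport of `CoreP` -/
theorem coreP_equiv {p : ℕ} {H V : Type v} [Group H] [Finite H] [AddCommGroup V] [Finite V] [DistribMulAction H V]
    {H' V' : Type u} [Group H'] [Finite H'] [AddCommGroup V'] [Finite V'] [DistribMulAction H' V']
    (f : H' ≃* H) (g : V' ≃+ V) (hfg : ∀ (h : H') (v : V'), g (h • v) = f h • g v)
    {K N : Subgroup H} {φ : N →* ℂˣ} (hC : CoreP (V := V) p K N φ) :
    CoreP (V := V') p (K.comap f.toMonoidHom) (N.comap f.toMonoidHom) (φ.comp (resEquiv f N).toMonoidHom) := by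
  have hK : K.Normal := hC.nK
  have hK' : (K.comap f.toMonoidHom).Normal := hK.comap _
  have hq : (H' ⧸ K.comap f.toMonoidHom) ≃* (H ⧸ K) := QuotientGroup.congr _ _ f (by
    ext x
    constructor
    · rintro ⟨y, hy, rfl⟩
      exact hy
    · intro hx
      refine ⟨f.symm x, ?_, f.apply_symm_apply x⟩
      change f (f.symm x) ∈ K
      rwa [f.apply_symm_apply])
  have hst : ∀ v : V', MulAction.stabilizer H' v = (MulAction.stabilizer H (g v)).comap f.toMonoidHom := by
    intro v
    ext h
    rw [MulAction.mem_stabilizer_iff, mem_comap_iff, MulAction.mem_stabilizer_iff, ← hfg]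
    exact g.injective.eq_iff.symm
  refine ⟨hC.odd, commutator_equiv f hC.perf, hK', ?_, ?_, ?_, ?_, ?_, ?_, ?_, ?_, ?_, ?_, ?_, ?_, ?_, ?_, ?_, ?_, ?_⟩
  · intro h
    apply hC.Kt
    rw [eq_top_iff]
    intro x _
    have h1 : f.symm x ∈ K.comap f.toMonoidHom := by rw [h]; trivial
    rwa [mem_comap_iff, f.apply_symm_apply] at h1
  · intro M hM hMt x hx
    have h1 := hC.maxK (M.map f.toMonoidHom) (hM.map _ f.surjective) (by
      intro h
      apply hMt
      rw [eq_top_iff]
      intro y _
      have h2 : f y ∈ M.map f.toMonoidHom := by rw [h]; trivial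
      obtain ⟨z, hz, hzy⟩ := h2
      rwa [← f.injective hzy])
    exact h1 ⟨x, hx, rfl⟩
  · have := hC.simp
    exact hq.isSimpleGroup
  · intro h
    apply hC.na
    refine ⟨⟨fun a b => ?_⟩⟩
    have h1 := h.is_comm.comm (hq.symm a) (hq.symm b)
    have h2 := congrArg hq h1
    rwa [map_mul, map_mul, hq.apply_symm_apply, hq.apply_symm_apply] at h2
  · rw [Nat.card_congr (resEquiv f K).toEquiv]
    exact hC.pK
  · rw [Nat.card_congr hq.toEquiv]
    exact hC.pS
  · intro P a ha b hb
    have hfin : Finite H := inferInstance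
    let Q : Sylow p H := P.comapOfInjective f.symm.toMonoidHom f.symm.injective
      (fun x _ => ⟨f x, f.symm_apply_apply x⟩)
    have hQ : ∀ x ∈ P, f x ∈ Q := fun x hx => by
      change f.symm (f x) ∈ P
      rwa [f.symm_apply_apply]
    have h1 := hC.ab Q (f a) (hQ a ha) (f b) (hQ b hb)
    apply f.injective
    rw [map_mul, map_mul]
    exact h1
  · intro x hx
    rw [Subgroup.mem_center_iff]
    intro y
    apply f.injective
    rw [map_mul, map_mul]
    exact Subgroup.mem_center_iff.1 (hC.cen hx) (f y)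
  · exact fun x hx => hC.NK hx
  · intro h
    apply hC.Nne
    rw [eq_bot_iff]
    intro x hx
    have h1 : f.symm x ∈ N.comap f.toMonoidHom := by
      rw [mem_comap_iff, f.apply_symm_apply]
      exact hx
    rw [h, Subgroup.mem_bot] at h1
    rw [Subgroup.mem_bot, ← f.apply_symm_apply x, h1, map_one]
  · exact hC.inj.comp (resEquiv f N).injective
  · intro v
    apply g.injective
    rw [map_nsmul, hC.exp, map_zero]
  · have := hC.nt
    exact g.toEquiv.nontrivial
  · intro h
    rw [mem_comap_iff, ← hC.ker]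
    constructor
    · intro h1 v
      have h2 := h1 (g.symm v)
      have h3 := congrArg g h2
      rwa [hfg, g.apply_symm_apply] at h3
    · intro h1 v
      apply g.injective
      rw [hfg, h1]
  · intro W hW
    rcases hC.irr (W.map g.toAddMonoidHom) (by
      rintro h _ ⟨w, hw, rfl⟩
      refine ⟨f.symm h • w, hW _ _ hw, ?_⟩
      change g (f.symm h • w) = h • g w
      rw [hfg, f.apply_symm_apply]) with h1 | h1
    · left
      rw [eq_bot_iff]
      intro w hw
      have h2 : g w ∈ W.map g.toAddMonoidHom := ⟨w, hw, rfl⟩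
      rw [h1, AddSubgroup.mem_bot] at h2
      rw [AddSubgroup.mem_bot]
      exact (map_eq_zero_iff g g.injective).1 h2
    · right
      rw [eq_top_iff]
      intro w _
      have h2 : g w ∈ W.map g.toAddMonoidHom := by rw [h1]; trivial
      obtain ⟨z, hz, hzw⟩ := h2
      rwa [← g.injective hzw]
  · intro v
    rw [hst v, Subgroup.index_comap_of_surjective _ f.surjective]
    exact hC.P1 (g v)
  · intro v χ hχ hl hd
    let s : ↥(MulAction.stabilizer H (g v)) ≃* ↥(MulAction.stabilizer H' v) :=
      (resEquiv f (MulAction.stabilizer H (g v))).symm.trans (MulEquiv.subgroupCongr (hst v).symm)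
    have hs : ∀ x, ((s x : ↥(MulAction.stabilizer H' v)) : H') = f.symm x := fun _ => rfl
    refine hC.P2 (g v) (fun x => χ (s x)) (isIrr_comp s.toMonoidHom s.surjective hχ) ?_ ?_
    · intro n hn hn'
      have h1 : f.symm n ∈ N.comap f.toMonoidHom := by
        rw [mem_comap_iff, f.apply_symm_apply]
        exact hn
      have h2 : f.symm n ∈ MulAction.stabilizer H' v := by
        rw [hst v, mem_comap_iff, f.apply_symm_apply]
        exact hn'
      have h3 := hl (f.symm n) h1 h2
      have h4 : s ⟨n, hn'⟩ = ⟨f.symm n, h2⟩ := Subtype.ext (hs _)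
      have h5 : (φ.comp (resEquiv f N).toMonoidHom) ⟨f.symm n, h1⟩ = φ ⟨n, hn⟩ := by
        change φ (resEquiv f N ⟨f.symm n, h1⟩) = _
        congr 1
        exact Subtype.ext (f.apply_symm_apply n)
      rw [h5] at h3
      change χ (s ⟨n, hn'⟩) = χ (s 1) * _
      rw [h4, h3, map_one]
    · have h4 : charDegree (fun x => χ (s x)) = charDegree χ := by
        change ⌊(χ (s 1)).re⌋₊ = ⌊(χ 1).re⌋₊
        rw [map_one]
      rw [h4]
      exact hd

theorem ek_congr {p : ℕ} {S : Type u} {T : Type v} [Group S] [Group T] (e : S ≃* T) (h : EK p S) : EK p T := by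
  intro H V _ _ _ _ _ K N φ π hC hs hker hcom
  obtain ⟨H', _, _, ⟨f⟩⟩ := exists_group_copy.{u, v} H
  obtain ⟨V', _, _, ⟨g⟩⟩ := exists_add_copy.{u, v} V
  let _ : DistribMulAction H' V' :=
    { smul := fun h v => g.symm (f h • g v)
      one_smul := fun v => by
        change g.symm (f 1 • g v) = v
        rw [map_one, one_smul, g.symm_apply_apply]
      mul_smul := fun a b v => by
        change g.symm (f (a * b) • g v) = g.symm (f a • g (g.symm (f b • g v)))
        rw [map_mul, mul_smul, g.apply_symm_apply]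
      smul_zero := fun a => by
        change g.symm (f a • g 0) = 0
        rw [map_zero, smul_zero, map_zero]
      smul_add := fun a v w => by
        change g.symm (f a • g (v + w)) = g.symm (f a • g v) + g.symm (f a • g w)
        rw [map_add, smul_add, map_add] }
  have hfg : ∀ (h : H') (v : V'), g (h • v) = f h • g v := fun h v => g.apply_symm_apply _
  refine h H' V' (K.comap f.toMonoidHom) (N.comap f.toMonoidHom) (φ.comp (resEquiv f N).toMonoidHom)
    (e.symm.toMonoidHom.comp (π.comp f.toMonoidHom)) (coreP_equiv f g hfg hC)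
    (e.symm.surjective.comp (hs.comp f.surjective)) ?_ ?_
  · ext x
    rw [MonoidHom.mem_ker, mem_comap_iff, ← hker, MonoidHom.mem_ker]
    change e.symm (π (f x)) = 1 ↔ π (f x) = 1
    exact map_eq_one_iff _ e.symm.injective
  · intro k hk a
    rw [mem_comap_iff, map_commutatorElement]
    exact hcom _ hk _

theorem kill_congr {p : ℕ} {S : Type u} {T : Type v} [Group S] [Group T] (e : S ≃* T) (h : Kill p S) : Kill p T :=
  h.imp (nball_congr e) (ek_congr e)

/-! ### Exceptional isomorphisms -/

section iso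

variable {F : Type u} [Field F] [Fintype F]

theorem psl24_a5 (h : Fintype.card F = 4) :
    Nonempty (Matrix.ProjectiveSpecialLinearGroup (Fin 2) F ≃* alternatingGroup (Fin 5)) := Cfsg.Agent.S0252.result h

theorem psl25_a5 (h : Fintype.card F = 5) :
    Nonempty (Matrix.ProjectiveSpecialLinearGroup (Fin 2) F ≃* alternatingGroup (Fin 5)) := Cfsg.Agent.S0253.result h

theorem psl24_psl25 {K : Type v} [Field K] [Fintype K] (h : Fintype.card F = 4) (h' : Fintype.card K = 5) :
    Nonempty (Matrix.ProjectiveSpecialLinearGroup (Fin 2) F ≃* Matrix.ProjectiveSpecialLinearGroup (Fin 2) K) := by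
  obtain ⟨a⟩ := psl24_a5 h
  obtain ⟨b⟩ := psl25_a5 h'
  exact ⟨a.trans b.symm⟩

theorem psl29_a6 (h : Fintype.card F = 9) :
    Nonempty (Matrix.ProjectiveSpecialLinearGroup (Fin 2) F ≃* alternatingGroup (Fin 6)) := Cfsg.Agent.S0254.result h

theorem psl27_psl32 {K : Type v} [Field K] [Fintype K] (h : Fintype.card F = 7) (h' : Fintype.card K = 2) :
    Nonempty (Matrix.ProjectiveSpecialLinearGroup (Fin 2) F ≃* Matrix.ProjectiveSpecialLinearGroup (Fin 3) K) :=
  Cfsg.Agent.S0255.result h h'

theorem psl42_a8 (h : Fintype.card F = 2) :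
    Nonempty (Matrix.ProjectiveSpecialLinearGroup (Fin 4) F ≃* alternatingGroup (Fin 8)) := Cfsg.Agent.S0256.result h

theorem psu42_psp43 {K : Type v} [Field K] [Fintype K] (h : Fintype.card F = 4) (h' : Fintype.card K = 3) :
    Nonempty (Cfsg.PSU 4 F 2 ≃* Cfsg.PSp 2 K) := Cfsg.Agent.S0822.result h h'

end iso

end Cfsg.Agent.H507.RIM
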